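import Cfsg.Agent.M12Type.NoSimple
import Cfsg.Prelude.Def_Transfer

/-!
The end of the order-five local structure for groups of Janko-four type: a group of order 1344 with
a self-centralising elementary abelian normal subgroup `E` of order eight, in which involutions
outside `E` have centralisers of order dividing 16, is a non-split extension of `E` by `L₃(2)`.
-/

set_option autoImplicit false

namespace CfsgLib.J4Five98

variable {X : Type*} [Group X]

/-- The quotient is `SL₃(2)`. -/
theorem nonempty_quotient_sl32 [Finite X] (E : Subgroup X) [E.Normal]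
    (hEl : Cfsg.IsElementaryAbelian 2 E) (h8 : Nat.card ↥E = 8)
    (hcent : Subgroup.centralizer (E : Set X) ≤ E) (hcard : Nat.card X = 1344) :
    Nonempty (X ⧸ E ≃* Matrix.SpecialLinearGroup (Fin 3) (ZMod 2)) := by
  haveI := hEl.1
  obtain ⟨φ, hφ⟩ := CfsgLib.M12Type.exists_hom_sl32 (W := ↥E)
    (fun w => by rw [← pow_two]; exact Subtype.ext (by simpa using hEl.2 w w.2)) h8
  let ψ : X →* CfsgLib.SmallRadical.SL32 := φ.comp MulAut.conjNormal
  have hker : ψ.ker = E := by
    ext y
    rw [MonoidHom.mem_ker, MonoidHom.comp_apply, ← map_one φ, hφ.eq_iff]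
    constructor
    · intro hy
      refine hcent (Subgroup.mem_centralizer_iff.2 fun n hn => ?_)
      have := congrArg (fun σ : MulAut ↥E => (σ ⟨n, hn⟩ : X)) hy
      simp only [MulAut.conjNormal_apply, MulAut.one_apply] at this
      exact (mul_inv_eq_iff_eq_mul.1 this).symm
    · intro hy
      refine MulEquiv.ext fun n => Subtype.ext ?_
      rw [MulAut.conjNormal_apply, MulAut.one_apply]
      refine mul_inv_eq_iff_eq_mul.2 ?_
      exact congrArg Subtype.val (mul_comm' (⟨y, hy⟩ : ↥E) n)
  have hidx : E.index = 168 := by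
    have h1 := E.index_mul_card
    rw [h8, hcard] at h1
    omega
  have hsurj : Function.Surjective ψ := by
    rw [← MonoidHom.range_eq_top]
    apply Subgroup.eq_top_of_card_eq
    rw [CfsgLib.SmallRadical.card_sl32, ← Subgroup.index_ker, hker, hidx]
  exact ⟨(QuotientGroup.quotientMulEquivOfEq hker.symm).trans
    (QuotientGroup.quotientKerEquivOfSurjective ψ hsurj)⟩

/-- There is no complement, from the bound on the centralisers. -/
theorem not_isComplement_of_le [Finite X] (E : Subgroup X) [E.Normal]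
    (hEl : Cfsg.IsElementaryAbelian 2 E) (h8 : Nat.card ↥E = 8) (hcard : Nat.card X = 1344)
    (hsmall : ∀ y : X, y * y = 1 → y ∉ E → Nat.card ↥(Subgroup.centralizer ({y} : Set X)) ≤ 16)
    (K : Subgroup X) : ¬ E.IsComplement' K := by
  intro hK
  haveI : Fact (Nat.Prime 2) := ⟨Nat.prime_two⟩
  have hK168 : Nat.card ↥K = 168 := by
    have := hK.card_mul
    rw [h8, hcard] at this
    omega
  obtain ⟨P, hP⟩ := Sylow.exists_subgroup_card_pow_prime 2 (G := ↥K) (n := 3)
    (by rw [hK168]; norm_num)
  haveI : Nontrivial ↥(P : Subgroup ↥K) := Finite.one_lt_card_iff_nontrivial.1 (by rw [hP]; norm_num)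
  haveI := (IsPGroup.of_card (p := 2) (n := 3) hP).center_nontrivial
  obtain ⟨c, hc⟩ := exists_prime_orderOf_dvd_card' (G := ↥(Subgroup.center ↥P)) 2 (by
    obtain ⟨k, hk⟩ :=
      ((IsPGroup.of_card (p := 2) (n := 3) hP).to_subgroup (Subgroup.center ↥P)).exists_card_eq
    rw [hk]
    exact dvd_pow_self _ (by
      intro h0
      rw [h0, pow_zero] at hk
      have := Finite.one_lt_card (α := ↥(Subgroup.center ↥P))
      omega))
  set s : X := (((c : ↥P) : ↥K) : X) with hs
  have hsK : s ∈ K := ((c : ↥P) : ↥K).2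
  have hso : orderOf s = 2 := by
    rw [hs, Subgroup.orderOf_coe, Subgroup.orderOf_coe, Subgroup.orderOf_coe, hc]
  have hss : s * s = 1 := by
    rw [← pow_two, ← hso]; exact pow_orderOf_eq_one s
  have hs1 : s ≠ 1 := by
    intro h; rw [h, orderOf_one] at hso; exact absurd hso (by norm_num)
  have hdisj : ∀ x, x ∈ E → x ∈ K → x = 1 := fun x hx hx' => by
    have := hK.disjoint
    exact Subgroup.disjoint_def.1 this hx hx'
  have hsE : s ∉ E := fun h => hs1 (hdisj s h hsK)
  have hE2 : ∀ e : ↥E, (e : X) * e = 1 := fun e => by rw [← pow_two]; exact hEl.2 e e.2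
  -- the map e ↦ e * (s e s)
  haveI := hEl.1
  have hcm : ∀ a b : ↥E, (a : X) * b = b * a := fun a b => congrArg Subtype.val (mul_comm' a b)
  have hconj : ∀ e : X, e ∈ E → s * e * s ∈ E := fun e he => by
    have h := (inferInstance : E.Normal).conj_mem e he s
    rwa [inv_eq_of_mul_eq_one_right hss] at h
  let T : ↥E →* ↥E := MonoidHom.mk' (fun e => ⟨(e : X) * (s * e * s), E.mul_mem e.2 (hconj e e.2)⟩)
    (fun a b => by
      apply Subtype.ext
      simp only [Subgroup.coe_mul]
      have h1 : s * ((a : X) * b) * s = (s * a * s) * (s * b * s) := by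
        calc s * ((a : X) * b) * s = s * a * (1 * b) * s := by group
        _ = s * a * ((s * s) * b) * s := by rw [hss]
        _ = _ := by group
      rw [h1]
      have h2 := hcm b ⟨_, hconj a a.2⟩
      simp only at h2
      rw [show (a : X) * b * (s * a * s * (s * b * s)) = (a : X) * ((b : X) * (s * a * s)) *
        (s * b * s) by group, h2]
      group)
  have hfix : ∀ e : ↥E, e ∈ T.ker → (e : X) * s = s * e := fun e he => by
    have h := congrArg Subtype.val (MonoidHom.mem_ker.1 he)
    simp only [T, MonoidHom.mk'_apply, OneMemClass.coe_one] at h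
    have h2 : s * (e : X) * s = e := by
      calc s * (e : X) * s = ((e : X) * e) * (s * e * s) := by rw [hE2, one_mul]
      _ = (e : X) * ((e : X) * (s * e * s)) := mul_assoc _ _ _
      _ = e := by rw [h, mul_one]
    calc (e : X) * s = s * (e : X) * s * s := by rw [h2]
    _ = s * (e : X) * (s * s) := by group
    _ = s * e := by rw [hss, mul_one]
  have hker4 : 4 ≤ Nat.card ↥T.ker := by
    have hle : T.range ≤ T.ker := by
      rintro _ ⟨e, rfl⟩
      rw [MonoidHom.mem_ker]
      apply Subtype.ext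
      simp only [T, MonoidHom.mk'_apply, OneMemClass.coe_one]
      have h1 : s * ((e : X) * (s * e * s)) * s = (s * e * s) * (e : X) := by
        calc s * ((e : X) * (s * e * s)) * s = (s * e * s) * (e : X) * (s * s) := by group
        _ = _ := by rw [hss, mul_one]
      have h2 := hcm e ⟨_, hconj e e.2⟩
      simp only at h2
      rw [h1, ← h2]
      exact hE2 ⟨_, E.mul_mem e.2 (hconj e e.2)⟩
    have h1 := Subgroup.card_le_of_le hle
    have h2 := T.ker.index_mul_card
    rw [Subgroup.index_ker, h8] at h2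
    by_contra hlt
    have h3 : Nat.card ↥T.range * Nat.card ↥T.ker ≤ 3 * 3 := Nat.mul_le_mul (by omega) (by omega)
    rcases (show Nat.card ↥T.ker = 0 ∨ Nat.card ↥T.ker = 1 ∨ Nat.card ↥T.ker = 2 ∨
      Nat.card ↥T.ker = 3 by omega) with h | h | h | h <;> rw [h] at h2 h1 <;> omega
  -- s is centralised by T.ker and by P
  have hPc : ∀ p : ↥P, ((p : ↥K) : X) * s = s * ((p : ↥K) : X) := fun p => by
    have h := Subgroup.mem_center_iff.1 c.2 p
    exact congrArg (fun q : ↥P => (((q : ↥K)) : X)) h
  let f : ↥T.ker × ↥P → ↥(Subgroup.centralizer ({s} : Set X)) := fun ep =>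
    ⟨((ep.1 : ↥E) : X) * ((ep.2 : ↥K) : X), by
      rw [Subgroup.mem_centralizer_singleton_iff]
      rw [mul_assoc, hPc, ← mul_assoc, hfix _ ep.1.2, mul_assoc]⟩
  have hf : Function.Injective f := by
    rintro ⟨e, p⟩ ⟨e', p'⟩ h
    have h' : ((e : ↥E) : X) * ((p : ↥K) : X) = ((e' : ↥E) : X) * ((p' : ↥K) : X) :=
      congrArg Subtype.val h
    have h'' : (((e' : ↥E) : X))⁻¹ * ((e : ↥E) : X) = ((p' : ↥K) : X) * (((p : ↥K) : X))⁻¹ := by
      rw [eq_mul_inv_iff_mul_eq, mul_assoc, h', ← mul_assoc, inv_mul_cancel, one_mul]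
    have h1 := hdisj _ (E.mul_mem (E.inv_mem (e' : ↥E).2) (e : ↥E).2)
      (h'' ▸ K.mul_mem (p' : ↥K).2 (K.inv_mem (p : ↥K).2))
    have he : e = e' := Subtype.ext (Subtype.ext (inv_mul_eq_one.1 h1).symm)
    subst he
    have hp : p = p' := Subtype.ext (Subtype.ext (mul_left_cancel h'))
    rw [hp]
  have h32 : 32 ≤ Nat.card ↥(Subgroup.centralizer ({s} : Set X)) := by
    refine le_trans ?_ (Nat.card_le_card_of_injective f hf)
    rw [Nat.card_prod, show Nat.card ↥P = 8 by rw [hP]; norm_num]
    omega
  have := hsmall s hss hsE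
  omega

/-- There is no complement. -/
theorem not_isComplement [Finite X] (E : Subgroup X) [E.Normal]
    (hEl : Cfsg.IsElementaryAbelian 2 E) (h8 : Nat.card ↥E = 8) (hcard : Nat.card X = 1344)
    (hsmall : ∀ y : X, y * y = 1 → y ∉ E → Nat.card ↥(Subgroup.centralizer ({y} : Set X)) ∣ 16)
    (K : Subgroup X) : ¬ E.IsComplement' K :=
  not_isComplement_of_le E hEl h8 hcard
    (fun y hy hyE => Nat.le_of_dvd (by norm_num) (hsmall y hy hyE)) K

end CfsgLib.J4Five98
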